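import Mathlib
import Cfsg.Agent.Lib.CGT.Net

/-! Computing in a 2-group given by a tower of extensions of degree two. -/

set_option autoImplicit false

namespace H80.PC

open H54 Subgroup

variable {G : Type*} [Group G]

/-- the element with code `a`: bit `i` is the exponent of the `i`-th generator -/
def ev : List G → ℕ → G
  | [], _ => 1
  | x :: xs, a => (if a % 2 = 1 then x else 1) * ev xs (a / 2)

/-- a level: number of codes below, code of the square, table of `x⁻¹ · x` -/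
abbrev Lv := ℕ × ℕ × ℕ

/-- table look-up -/
def lk (T a : ℕ) : ℕ := Nat.mod (Nat.shiftRight T (Nat.mul 16 a)) 65536

/-- product of codes -/
noncomputable def mu (P : List Lv) : ℕ → ℕ → ℕ :=
  List.rec (motive := fun _ => ℕ → ℕ → ℕ) (fun _ _ => 0) (fun L _ ih a b =>
    force a fun a => force b fun b => force (Nat.div a 2) fun a' => force (Nat.div b 2) fun b' =>
    sel (Nat.beq (Nat.mod b 2) 1)
      (force (ih (lk L.2.2 (Nat.mod a' L.1)) b') fun r =>
        sel (Nat.beq (Nat.mod a 2) 1) (Nat.mul 2 (sel (Nat.beq L.2.1 0) r (ih L.2.1 r))) (Nat.succ (Nat.mul 2 r)))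
      (Nat.add (Nat.mod a 2) (Nat.mul 2 (ih a' b')))) P

/-- inverse of a code -/
noncomputable def iv (P : List Lv) : ℕ → ℕ :=
  List.rec (motive := fun _ => ℕ → ℕ) (fun _ => 0) (fun L P ih a =>
    force a fun a => force (ih (Nat.div a 2)) fun r =>
    sel (Nat.beq (Nat.mod a 2) 1) (Nat.succ (Nat.mul 2 (mu P (lk L.2.2 (Nat.mod r L.1)) (ih L.2.1))))
      (Nat.mul 2 r)) P

/-- `c a c⁻¹` -/
noncomputable def cj (P : List Lv) (c a : ℕ) : ℕ := mu P (mu P c a) (iv P c)
/-- `a b a⁻¹ b⁻¹` -/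
noncomputable def cm (P : List Lv) (a b : ℕ) : ℕ := mu P (cj P a b) (iv P b)
/-- substitution of the codes `im` for the generators -/
noncomputable def act (P : List Lv) (im : List ℕ) : ℕ → ℕ :=
  List.rec (motive := fun _ => ℕ → ℕ) (fun _ => 0) (fun c _ ih a =>
    force a fun a => force (ih (Nat.div a 2)) fun r => sel (Nat.beq (Nat.mod a 2) 1) (mu P c r) r) im

/-- the relations hold -/
def Ok : List G → List Lv → Prop
  | [], [] => True
  | x :: xs, L :: P => Ok xs P ∧ L.1 = 2 ^ xs.length ∧ x * x = ev xs L.2.1 ∧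
      ∀ a < L.1, x⁻¹ * ev xs a * x = ev xs (lk L.2.2 a)
  | _, _ => False

theorem ev_zero : ∀ xs : List G, ev xs 0 = 1
  | [] => rfl
  | x :: xs => by simp [ev, ev_zero xs]

theorem ev_mod : ∀ (xs : List G) (a : ℕ), ev xs (a % 2 ^ xs.length) = ev xs a
  | [], _ => rfl
  | x :: xs, a => by
    have e1 : a % 2 ^ (xs.length + 1) % 2 = a % 2 := Nat.mod_mod_of_dvd a (dvd_pow_self 2 (Nat.succ_ne_zero _))
    have e2 : a % 2 ^ (xs.length + 1) / 2 = a / 2 % 2 ^ xs.length := by rw [pow_succ', Nat.mod_mul_right_div_self]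
    simp only [ev, List.length_cons, e1, e2, ev_mod xs]

theorem ev_bit0 (x : G) (xs : List G) (r : ℕ) : ev (x :: xs) (2 * r) = ev xs r := by
  simp [ev]

theorem ev_bit1 (x : G) (xs : List G) (r : ℕ) : ev (x :: xs) (2 * r + 1) = x * ev xs r := by
  have : (2 * r + 1) / 2 = r := by omega
  simp [ev, this]

theorem sel_beq (a b x y : ℕ) : sel (Nat.beq a b) x y = if a = b then x else y := by
  simp only [sel_eq, Nat.beq_eq]

theorem mu_cons (L : Lv) (P : List Lv) (a b : ℕ) : mu (L :: P) a b =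
    if b % 2 = 1 then (if a % 2 = 1 then 2 * (if L.2.1 = 0 then mu P (lk L.2.2 (a / 2 % L.1)) (b / 2) else
      mu P L.2.1 (mu P (lk L.2.2 (a / 2 % L.1)) (b / 2))) else 2 * mu P (lk L.2.2 (a / 2 % L.1)) (b / 2) + 1)
    else a % 2 + 2 * mu P (a / 2) (b / 2) := by
  simp only [← sel_beq]; rfl

theorem iv_cons (L : Lv) (P : List Lv) (a : ℕ) : iv (L :: P) a =
    if a % 2 = 1 then 2 * mu P (lk L.2.2 (iv P (a / 2) % L.1)) (iv P L.2.1) + 1 else 2 * iv P (a / 2) := by
  simp only [← sel_beq]; rfl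

theorem act_cons (P : List Lv) (c : ℕ) (im : List ℕ) (a : ℕ) : act P (c :: im) a =
    if a % 2 = 1 then mu P c (act P im (a / 2)) else act P im (a / 2) := by
  simp only [← sel_beq]; rfl

theorem Ok.tab {x : G} {xs : List G} {L : Lv} {P : List Lv} (h : Ok (x :: xs) (L :: P)) (a : ℕ) :
    ev xs a * x = x * ev xs (lk L.2.2 (a % L.1)) := by
  rw [← h.2.2.2 _ (Nat.mod_lt _ (by rw [h.2.1]; positivity)), h.2.1, ev_mod]; group

theorem Ok.len : ∀ {xs : List G} {P : List Lv}, Ok xs P → P.length = xs.length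
  | [], [], _ => rfl
  | _ :: _, _ :: _, h => congrArg (· + 1) h.1.len
  | [], _ :: _, h => h.elim
  | _ :: _, [], h => h.elim

theorem Ok.mul : ∀ {xs : List G} {P : List Lv}, Ok xs P → ∀ a b, ev xs (mu P a b) = ev xs a * ev xs b
  | [], [], _, _, _ => (mul_one _).symm
  | [], _ :: _, h, _, _ => h.elim
  | _ :: _, [], h, _, _ => h.elim
  | x :: xs, L :: P, h, a, b => by
    have ih := h.1.mul
    have tb := h.tab (a / 2)
    rw [mu_cons]
    split_ifs with hb ha h0
    · rw [ev_bit0, ih, ev, ev, if_pos ha, if_pos hb, mul_assoc, ← mul_assoc (ev xs _) x, tb, ← mul_assoc,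
        ← mul_assoc, h.2.2.1, h0, ev_zero, one_mul]
    · rw [ev_bit0, ih, ih, ev, ev, if_pos ha, if_pos hb, mul_assoc x, ← mul_assoc (ev xs _) x, tb, ← mul_assoc,
        ← mul_assoc, ← mul_assoc, h.2.2.1]
    · rw [ev_bit1, ih, ev, ev, if_neg ha, if_pos hb, one_mul, ← mul_assoc (ev xs _) x, tb, mul_assoc]
    · have e1 : (a % 2 + 2 * mu P (a / 2) (b / 2)) % 2 = a % 2 := by omega
      have e2 : (a % 2 + 2 * mu P (a / 2) (b / 2)) / 2 = mu P (a / 2) (b / 2) := by omega
      rw [ev, ev, ev, e1, e2, ih, if_neg hb, one_mul, mul_assoc]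

theorem Ok.inv : ∀ {xs : List G} {P : List Lv}, Ok xs P → ∀ a, ev xs (iv P a) = (ev xs a)⁻¹
  | [], [], _, _ => inv_one.symm
  | [], _ :: _, h, _ => h.elim
  | _ :: _, [], h, _ => h.elim
  | x :: xs, L :: P, h, a => by
    have ih := h.1.inv
    have tb := h.tab (iv P (a / 2))
    rw [iv_cons]
    split_ifs with ha
    · rw [ev_bit1, h.1.mul, ← mul_assoc, ← tb, ih, ih, ← h.2.2.1, ev, if_pos ha]; group
    · rw [ev_bit0, ih, ev, if_neg ha, one_mul]

theorem mu_lt : ∀ (P : List Lv) (a b : ℕ), mu P a b < 2 ^ P.length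
  | [], _, _ => Nat.one_pos
  | L :: P, a, b => by
    have h1 := mu_lt P (lk L.2.2 (a / 2 % L.1)) (b / 2)
    have h2 := mu_lt P L.2.1 (mu P (lk L.2.2 (a / 2 % L.1)) (b / 2))
    have h3 := mu_lt P (a / 2) (b / 2)
    rw [mu_cons, List.length_cons, pow_succ]
    split_ifs <;> omega

theorem iv_lt : ∀ (P : List Lv) (a : ℕ), iv P a < 2 ^ P.length
  | [], _ => Nat.one_pos
  | L :: P, a => by
    have h1 := mu_lt P (lk L.2.2 (iv P (a / 2) % L.1)) (iv P L.2.1)
    have h2 := iv_lt P (a / 2)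
    rw [iv_cons, List.length_cons, pow_succ]
    split_ifs <;> omega

theorem cj_lt (P : List Lv) (a b : ℕ) : cj P a b < 2 ^ P.length := mu_lt ..
theorem cm_lt (P : List Lv) (a b : ℕ) : cm P a b < 2 ^ P.length := mu_lt ..

variable {xs : List G} {P : List Lv}

theorem Ok.cj (h : Ok xs P) (c a : ℕ) : ev xs (cj P c a) = ev xs c * ev xs a * (ev xs c)⁻¹ := by
  rw [PC.cj, h.mul, h.mul, h.inv]

theorem Ok.cm (h : Ok xs P) (a b : ℕ) : ev xs (cm P a b) = ev xs a * ev xs b * (ev xs a)⁻¹ * (ev xs b)⁻¹ := by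
  rw [PC.cm, h.mul, h.cj, h.inv]

theorem ev_map {H : Type*} [Group H] (f : G →* H) : ∀ (xs : List G) (a : ℕ), f (ev xs a) = ev (xs.map f) a
  | [], _ => map_one f
  | x :: xs, a => by
    simp only [ev, List.map_cons, map_mul, ev_map f xs]
    split_ifs <;> simp

theorem Ok.act (h : Ok xs P) : ∀ {ys : List G} {im : List ℕ}, List.Forall₂ (fun y c => y = ev xs c) ys im →
    ∀ a, ev ys a = ev xs (act P im a)
  | _, _, .nil, _ => (ev_zero xs).symm
  | _, _, .cons e r, a => by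
    rw [act_cons, ev, h.act r]
    split_ifs
    · rw [h.mul, e]
    · rw [one_mul]

/-- conjugation by `g` on codes -/
theorem Ok.conj (h : Ok xs P) {g : G} {im : List ℕ} (e : List.Forall₂ (fun y c => g * y * g⁻¹ = ev xs c) xs im)
    (a : ℕ) : g * ev xs a * g⁻¹ = ev xs (PC.act P im a) :=
  (ev_map (MulAut.conj g).toMonoidHom xs a).trans (h.act (List.forall₂_map_left_iff.2 e) a)

/-- one more generator -/
theorem Ok.cons (h : Ok xs P) {x : G} {k s T : ℕ} {im : List ℕ} (hk : k = 2 ^ xs.length) (hs : x * x = ev xs s)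
    (e : List.Forall₂ (fun y c => x⁻¹ * y * x = ev xs c) xs im)
    (c : allLt (fun a => Nat.beq (lk T a) (PC.act P im a)) k = true) : Ok (x :: xs) ((k, s, T) :: P) :=
  ⟨h, hk, hs, fun a ha => by
    have := h.conj (g := x⁻¹) (by simpa only [inv_inv] using e) a
    rw [inv_inv] at this
    rw [this, Nat.eq_of_beq_eq_true ((allLt_iff _ _).1 c a ha)]⟩

/-- the group of all values -/
def Ok.gp (h : Ok xs P) : Subgroup G where
  carrier := Set.range (ev xs)
  mul_mem' := by rintro _ _ ⟨a, rfl⟩ ⟨b, rfl⟩; exact ⟨_, h.mul a b⟩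
  one_mem' := ⟨0, ev_zero xs⟩
  inv_mem' := by rintro _ ⟨a, rfl⟩; exact ⟨_, h.inv a⟩

theorem ev_mem {H : Subgroup G} : ∀ {xs : List G}, (∀ x ∈ xs, x ∈ H) → ∀ a, ev xs a ∈ H
  | [], _, _ => one_mem H
  | x :: xs, h, a => mul_mem (by split_ifs; exacts [h x (by simp), one_mem H])
      (ev_mem (fun y hy => h y (List.mem_cons_of_mem _ hy)) _)

theorem ex_code : ∀ {xs : List G} {x : G}, x ∈ xs → ∃ a, ev xs a = x
  | y :: xs, x, h => by
    rcases List.mem_cons.1 h with rfl | h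
    · exact ⟨2 * 0 + 1, by rw [ev_bit1, ev_zero, mul_one]⟩
    · obtain ⟨a, e⟩ := ex_code h
      exact ⟨2 * a, by rw [ev_bit0, e]⟩

theorem Ok.mem (h : Ok xs P) {g : G} : g ∈ closure {x | x ∈ xs} ↔ ∃ a < 2 ^ xs.length, g = ev xs a := by
  refine ⟨fun hg => ?_, fun ⟨a, _, e⟩ => e ▸ ev_mem (fun x hx => subset_closure hx) a⟩
  obtain ⟨a, e⟩ := (closure_le h.gp).2 (fun x hx => ex_code hx) hg
  exact ⟨_, Nat.mod_lt _ (by positivity), by rw [ev_mod, e]⟩

/-- only the code `0` gives `1` -/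
def Ker (xs : List G) : Prop := ∀ a < 2 ^ xs.length, ev xs a = 1 → a = 0

theorem Ok.inj : ∀ {xs : List G} {P : List Lv}, Ok xs P → Ker xs → ∀ {a b : ℕ}, a < 2 ^ xs.length →
    b < 2 ^ xs.length → ev xs a = ev xs b → a = b
  | [], _, _, _, a, b, ha, hb, _ => by simp at ha hb; omega
  | _ :: _, [], h, _, _, _, _, _, _ => h.elim
  | x :: xs, L :: P, h, k, a, b, ha, hb, e => by
    rw [List.length_cons, pow_succ] at ha hb
    have k' : Ker xs := fun c hc e => by
      have := k (2 * c) (by rw [List.length_cons, pow_succ]; omega) (by rwa [ev_bit0])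
      omega
    have no : ∀ c d, x * ev xs c ≠ ev xs d := fun c d e => by
      have l := mu_lt P c (iv P d)
      rw [h.1.len] at l
      have := k (2 * mu P c (iv P d) + 1) (by rw [List.length_cons, pow_succ]; omega)
        (by rw [ev_bit1, h.1.mul, h.1.inv, ← mul_assoc, e, mul_inv_cancel])
      omega
    rw [ev, ev] at e
    split_ifs at e with h1 h2 h2
    · have := h.1.inj k' (a := a / 2) (b := b / 2) (by omega) (by omega) (mul_left_cancel e)
      omega
    · exact absurd (by rwa [one_mul] at e) (no _ _)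
    · exact absurd (by rw [one_mul] at e; exact e.symm) (no _ _)
    · have := h.1.inj k' (a := a / 2) (b := b / 2) (by omega) (by omega) (mul_left_cancel e)
      omega

/-- repeated commutators with `gs` reach a code in `zs` -/
noncomputable def rch (P : List Lv) (gs zs : List ℕ) (n : ℕ) : ℕ → Bool :=
  Nat.rec (motive := fun _ => ℕ → Bool) (fun a => anyL (Nat.beq a) zs)
    (fun _ ih a => bor (anyL (Nat.beq a) zs) (anyL (fun g => force (cm P g a) fun c =>
      band (!Nat.beq c 0) (ih c)) gs)) n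

theorem Ok.rch (h : Ok xs P) {gs zs : List ℕ} (hz : ∀ z ∈ zs, ev xs z ≠ 1) :
    ∀ n a, rch P gs zs n a = true → ev xs a ≠ 1
  | 0, a, c => by
    obtain ⟨z, m, e⟩ := (anyL_iff _ _).1 c
    exact Nat.eq_of_beq_eq_true e ▸ hz z m
  | n + 1, a, c => by
    replace c : bor (anyL (Nat.beq a) zs) (anyL (fun g => force (PC.cm P g a) fun c =>
      band (!Nat.beq c 0) (PC.rch P gs zs n c)) gs) = true := c
    simp only [bor_eq_true, anyL_iff, force_eq, band_eq_true, Nat.beq_eq] at c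
    rcases c with ⟨z, m, rfl⟩ | ⟨g, -, -, c⟩
    · exact hz _ m
    · intro e
      exact h.rch hz n _ c (by rw [h.cm, e]; simp)

theorem Ok.ker (h : Ok xs P) {gs zs : List ℕ} (hz : ∀ z ∈ zs, ev xs z ≠ 1) {n k : ℕ} (hk : k = 2 ^ xs.length)
    (c : allLt (fun a => bor (Nat.beq a 0) (PC.rch P gs zs n a)) k = true) : Ker xs := fun a ha e => by
  have := (allLt_iff _ _).1 c a (hk ▸ ha)
  rw [bor_eq_true, Nat.beq_eq] at this
  exact this.resolve_right fun c => h.rch hz n a c e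

theorem Ok.card (h : Ok xs P) (k : Ker xs) : Nat.card (closure {x | x ∈ xs} : Subgroup G) = 2 ^ xs.length := by
  rw [← Nat.card_fin (2 ^ xs.length)]
  refine (Nat.card_congr (Equiv.ofBijective (fun i : Fin (2 ^ xs.length) =>
    (⟨ev xs i, h.mem.2 ⟨i, i.2, rfl⟩⟩ : closure {x | x ∈ xs})) ⟨fun i j e => ?_, fun g => ?_⟩)).symm
  · exact Fin.ext (h.inj k i.2 j.2 (congrArg Subtype.val e))
  · obtain ⟨a, ha, e⟩ := h.mem.1 g.2
    exact ⟨⟨a, ha⟩, Subtype.ext e.symm⟩

theorem Ok.isP (h : Ok xs P) (k : Ker xs) : IsPGroup 2 (closure {x | x ∈ xs} : Subgroup G) :=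
  IsPGroup.of_card (h.card k)

theorem eqns_Eng : True := by
  have := @ev.eq_1.{0}
  have := @ev.eq_2.{0}
  have := @ev.eq_def.{0}
  have := @Ok.eq_def.{0}
  have := @lk.eq_1
  have := @cj.eq_1
  have := @cm.eq_1
  have := @Ker.eq_1.{0}
  trivial

end H80.PC
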